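import Mathlib
set_option linter.all false

/-!
# S4543: interface (2-generated groups of order 64)

See `tools/plans/S4543.md`.

* `Good D`: what is left of `D` after S4542, S4544 and the abelian case.
* `Loc Q z a y`: `a` is (on `Q`) an automorphism of order three of the self-centralizing subgroup
  `Q` fixing the central element `z ≠ 1`; the element `y ∉ Q` normalizes `Q`, `y² ∈ Q`, and `y`
  inverts `a`.
* `Str Q R y p q`: the structure of `Q` when `|Q| = 4 |R|`, `R = C_Q(a)`.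
* `Last Q z`: the last case (`Q / ⟨z⟩ = C4 × C4`, `Q' = ⟨z⟩`).
-/

set_option autoImplicit false

namespace Cfsg.Agent.H617.Two

open Subgroup

/-- The groups of order 64 that remain in S4543 (besides the abelian ones). -/
structure Good (D : Type*) [Group D] : Prop where
  card : Nat.card D = 64
  gen : ∃ a b : D, closure ({a, b} : Set D) = ⊤
  exp : ∀ x : D, x ^ 8 = 1
  centre : ∀ z ∈ center D, z * z = 1

/-- `a` is, on `Q`, an automorphism of order three fixing the central element `z`;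
`y ∈ N_D(Q)` inverts it. -/
structure Loc {D : Type*} [Group D] (Q : Subgroup D) (z : D) (a : D → D) (y : D) : Prop where
  zc : z ∈ center D
  z1 : z ≠ 1
  cent : ∀ x : D, (∀ q ∈ Q, x * q = q * x) → x ∈ Q
  map : ∀ q ∈ Q, a q ∈ Q
  mul : ∀ q ∈ Q, ∀ r ∈ Q, a (q * r) = a q * a r
  cube : ∀ q ∈ Q, a (a (a q)) = q
  ne : ∃ q ∈ Q, a q ≠ q
  az : a z = z
  yQ : y ∉ Q
  yN : ∀ q ∈ Q, y * q * y⁻¹ ∈ Q
  yy : y * y ∈ Q
  inv : ∀ q ∈ Q, a (y * a q * y⁻¹) = y * q * y⁻¹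

/-- The structure of `Q` in the case `|Q| = 4 |R|` (`R` the fixed points of `a` in `Q`): `Q` is the
product of `R` and `⟨p, q⟩` (a four-group or a quaternion group of order 8) and `R` commutes with
`⟨p, q⟩`; with `s = p²`: `s² = 1`, `q² = s`, `p q = s q p`; and `y` acts by `p ↦ s p`, `q ↦ p q`,
`y² ∈ R`. -/
structure Str {D : Type*} [Group D] (Q R : Subgroup D) (y p q : D) : Prop where
  RQ : R ≤ Q
  pQ : p ∈ Q
  qQ : q ∈ Q
  pR : p ∉ R
  qR : q ∉ R
  pqR : p * q ∉ R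
  pp : p * p ∈ R
  pppp : p * p * (p * p) = 1
  qq : q * q = p * p
  comm : p * q = p * p * (q * p)
  pc : ∀ r ∈ R, p * r = r * p
  qc : ∀ r ∈ R, q * r = r * q
  cover : ∀ x ∈ Q, ∃ r ∈ R, x = r ∨ x = p * r ∨ x = q * r ∨ x = p * q * r
  yQ : y ∉ Q
  yR : ∀ r ∈ R, y * r * y⁻¹ ∈ R
  yy : y * y ∈ R
  yp : y * p * y⁻¹ = p * p * p
  yq : y * q * y⁻¹ = p * q

/-- The last case: `Q` of order 32, `Q / ⟨z⟩ = C4 × C4`, `Q' = ⟨z⟩`. -/
structure Last {D : Type*} [Group D] (Q : Subgroup D) (z : D) : Prop where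
  card : Nat.card Q = 32
  cent : ∀ x : D, (∀ q ∈ Q, x * q = q * x) → x ∈ Q
  comm : ∀ x ∈ Q, ∀ w ∈ Q, x * w = w * x ∨ x * w = z * (w * x)
  nonab : ∃ x ∈ Q, ∃ w ∈ Q, x * w ≠ w * x
  /-- the centre of `Q` has order 8 -/
  card_centre : Nat.card {x : D // x ∈ Q ∧ ∀ w ∈ Q, x * w = w * x} = 8
  centre_sq : ∀ x ∈ Q, (∀ w ∈ Q, x * w = w * x) → ∃ v ∈ Q, x = v * v ∨ x = v * v * z
  centre_el : ∀ x ∈ Q, (∀ w ∈ Q, x * w = w * x) → x * x = 1
  not_centre : ∀ x ∈ Q, ¬ (∀ w ∈ Q, x * w = w * x) → x * x ≠ 1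
  /-- the centre of `Q` is not contained in the centre of `D` -/
  not_central : ∃ x ∈ Q, (∀ w ∈ Q, x * w = w * x) ∧ x ∉ center D

end Cfsg.Agent.H617.Two
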